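-- Team project JR (S3206), package [V0] (helper37).
import Mathlib
import Cfsg.Agent.Lib.Helper35.JR.Defs

/-!
# JR, [V0]: 2 × 2 matrices commuting with `A` and `B` up to sign
-/

set_option autoImplicit false

namespace Cfsg.Agent.Lib.Helper37.JR

open Cfsg.Agent.Lib.Helper35.JR

universe u

/-- [V0] -/
theorem pkgV0 : PkgV0.{u} := by
  intro F _ h2 a b hab M hA hB
  obtain ⟨x, y, z, w, rfl⟩ : ∃ x y z w : F, M = !![x, y; z, w] :=
    ⟨M 0 0, M 0 1, M 1 0, M 1 1, by ext i j; fin_cases i <;> fin_cases j <;> rfl⟩
  have half : ∀ t : F, 2 * t = 0 → t = 0 := fun t ht => (mul_eq_zero.mp ht).resolve_left h2
  rcases hA with h | h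
  · -- M commutes with A : z = -y, w = x
    have hz : z = -y := by
      have := congrFun (congrFun h 0) 0
      simp [Matrix.mul_apply, Fin.sum_univ_two] at this
      first | linear_combination this | linear_combination -this
    have hw : w = x := by
      have := congrFun (congrFun h 0) 1
      simp [Matrix.mul_apply, Fin.sum_univ_two] at this
      first | linear_combination this | linear_combination -this
    subst hz
    subst w
    rcases hB with h' | h'
    · have e00 := congrFun (congrFun h' 0) 0
      have e01 := congrFun (congrFun h' 0) 1
      simp [Matrix.mul_apply, Fin.sum_univ_two] at e00 e01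
      have hyb : y * b = 0 := half _ (by first | linear_combination e00 | linear_combination -e00)
      have hya : y * a = 0 := half _ (by first | linear_combination e01 | linear_combination -e01)
      have hy : y = 0 := by linear_combination y * hab - a * hya - b * hyb
      refine ⟨x, Or.inl ?_⟩
      ext i j
      fin_cases i <;> fin_cases j <;> simp [hy]
    · have e00 := congrFun (congrFun h' 0) 0
      have e01 := congrFun (congrFun h' 0) 1
      simp [Matrix.mul_apply, Fin.sum_univ_two] at e00 e01
      have hxa : x * a = 0 := half _ (by first | linear_combination e00 | linear_combination -e00)
      have hxb : x * b = 0 := half _ (by first | linear_combination e01 | linear_combination -e01)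
      have hx : x = 0 := by linear_combination x * hab - a * hxa - b * hxb
      refine ⟨-y, Or.inr (Or.inl ?_)⟩
      ext i j
      fin_cases i <;> fin_cases j <;> simp [hx]
  · -- M anticommutes with A : z = y, w = -x
    have hz : y = z := by
      have := congrFun (congrFun h 0) 0
      simp [Matrix.mul_apply, Fin.sum_univ_two] at this
      first | linear_combination this | linear_combination -this
    have hw : w = -x := by
      have := congrFun (congrFun h 0) 1
      simp [Matrix.mul_apply, Fin.sum_univ_two] at this
      first | linear_combination this | linear_combination -this
    subst hz
    subst w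
    rcases hB with h' | h'
    · have e01 := congrFun (congrFun h' 0) 1
      simp [Matrix.mul_apply, Fin.sum_univ_two] at e01
      have hxb : y * a - x * b = 0 :=
        half _ (by first | linear_combination e01 | linear_combination -e01)
      refine ⟨-(x * a + y * b), Or.inr (Or.inr (Or.inl ?_))⟩
      ext i j
      fin_cases i <;> fin_cases j <;> simp
      · linear_combination x * hab + b * hxb
      · linear_combination y * hab - a * hxb
      · linear_combination y * hab - a * hxb
      · first | linear_combination (-x) * hab - b * hxb | linear_combination x * hab + b * hxb
    · have e00 := congrFun (congrFun h' 0) 0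
      simp [Matrix.mul_apply, Fin.sum_univ_two] at e00
      have hxa : x * a + y * b = 0 :=
        half _ (by first | linear_combination e00 | linear_combination -e00)
      refine ⟨x * b - y * a, Or.inr (Or.inr (Or.inr ?_))⟩
      ext i j
      fin_cases i <;> fin_cases j <;> simp
      · linear_combination x * hab - a * hxa
      · linear_combination y * hab - b * hxa
      · linear_combination y * hab - b * hxa
      · first | linear_combination (-x) * hab + a * hxa | linear_combination x * hab - a * hxa
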